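import Cfsg.Agent.H47.HT.Opp

/-!
# The norm of a Harish-Chandra induced character, self-dual cuspidal (helper47, S4933)

`inner_hc` : `⟨R(c ⊗ χ), R(c ⊗ χ')⟩ = 2 ⟨χ, χ'⟩` for `c` cuspidal with `c ∘ ι = c`.
-/

set_option autoImplicit false
set_option linter.unusedSectionVars false
set_option linter.style.haveILetI false

open scoped ComplexConjugate
open Cfsg

namespace Cfsg.Agent.H47.HT

open Cfsg.Agent.OddOrderCharacters.Clifford Cfsg.Agent.Characters MulAction Module Cfsg.Agent.H53.HC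
open Cfsg.Agent.H477.HC Cfsg.Agent.H477.HC.CForm

universe u v w

variable {K : Type u} [Field K] {V : Type v} [AddCommGroup V] [Module K V] {F : CForm K V}

/-- the local sum -/
noncomputable def JJ (F : CForm K V) [Fintype F.iso] {k : ℕ} (c : GL (Fin k) K → ℂ)
    (ψ ψ' : F.iso → Submodule K V → ℂ) (W W' : Submodule K V) : ℂ :=
  ∑ g : F.iso, (flagTerm F.iso.subtype c g W * ψ g W) * conj (flagTerm F.iso.subtype c g W' * ψ' g W')

theorem JJ_map [Fintype F.iso] {k : ℕ} {c : GL (Fin k) K → ℂ} (hcl : IsClassFunction _ c)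
    {ψ ψ' : F.iso → Submodule K V → ℂ}
    (hψ : ∀ x g W, ψ (x * g * x⁻¹) (W.map (F.iso.subtype x : V →ₗ[K] V)) = ψ g W)
    (hψ' : ∀ x g W, ψ' (x * g * x⁻¹) (W.map (F.iso.subtype x : V →ₗ[K] V)) = ψ' g W) (x : F.iso)
    (W W' : Submodule K V) :
    JJ F c ψ ψ' (W.map (F.iso.subtype x : V →ₗ[K] V)) (W'.map (F.iso.subtype x : V →ₗ[K] V)) = JJ F c ψ ψ' W W' := by
  unfold JJ
  symm
  refine Fintype.sum_equiv (MulAut.conj x).toEquiv _ _ fun g => ?_
  change _ = (flagTerm F.iso.subtype c (x * g * x⁻¹) _ * ψ (x * g * x⁻¹) _) *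
    conj (flagTerm F.iso.subtype c (x * g * x⁻¹) _ * ψ' (x * g * x⁻¹) _)
  rw [flagTerm_conj F.iso.subtype hcl, flagTerm_conj F.iso.subtype hcl, hψ, hψ']

theorem inner_hc_eq [FiniteDimensional K V] [Finite V] [Fintype F.iso] {k : ℕ} [Fintype (F.Om k)]
    {c : GL (Fin k) K → ℂ} (hcl : IsClassFunction _ c)
    {ψ ψ' : F.iso → Submodule K V → ℂ}
    (hψ : ∀ x g W, ψ (x * g * x⁻¹) (W.map (F.iso.subtype x : V →ₗ[K] V)) = ψ g W)
    (hψ' : ∀ x g W, ψ' (x * g * x⁻¹) (W.map (F.iso.subtype x : V →ₗ[K] V)) = ψ' g W)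
    {W₀ : Submodule K V} (hW₀ : W₀ ∈ F.Om k) :
    classInner (F.hc c ψ) (F.hc c ψ') =
      (Nat.card (stabW F.iso.subtype W₀) : ℂ)⁻¹ * ∑ W' : F.Om k, JJ F c ψ ψ' W₀ W'.1 := by
  classical
  have := isoFin F
  rw [Core.classInner_def]
  have e1 : ∑ g : F.iso, F.hc c ψ g * conj (F.hc c ψ' g) = ∑ W : F.Om k, ∑ W' : F.Om k, JJ F c ψ ψ' W.1 W'.1 := by
    have h1 : ∀ g : F.iso, F.hc c ψ g * conj (F.hc c ψ' g) = ∑ W : F.Om k, ∑ W' : F.Om k,
        (flagTerm F.iso.subtype c g W.1 * ψ g W.1) * conj (flagTerm F.iso.subtype c g W'.1 * ψ' g W'.1) := by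
      intro g
      unfold CForm.hc
      rw [map_sum, Finset.sum_mul_sum]
    rw [Finset.sum_congr rfl fun g _ => h1 g, Finset.sum_comm]
    refine Finset.sum_congr rfl fun W _ => ?_
    rw [Finset.sum_comm]
    rfl
  have e2 : ∀ W : F.Om k, ∑ W' : F.Om k, JJ F c ψ ψ' W.1 W'.1 = ∑ W' : F.Om k, JJ F c ψ ψ' W₀ W'.1 := by
    intro W
    obtain ⟨x, hx⟩ := F.trans_Om hW₀ W.2
    symm
    letI := subAct F.iso.subtype (F.Om k) F.Om_map
    refine Fintype.sum_equiv (MulAction.toPerm x : Equiv.Perm (F.Om k)) _ _ fun W' => ?_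
    rw [← hx, ← JJ_map hcl hψ hψ' x W₀ W'.1]
    rfl
  rw [e1, Finset.sum_congr rfl fun W _ => e2 W, Finset.sum_const, Finset.card_univ, ← Nat.card_eq_fintype_card,
    nsmul_eq_mul, ← mul_assoc]
  congr 1
  have h0 : (Nat.card (F.Om k) : ℂ) ≠ 0 := by
    have : Nonempty (F.Om k) := ⟨⟨W₀, hW₀⟩⟩
    exact Nat.cast_ne_zero.2 Nat.card_pos.ne'
  have h1 : (Nat.card (stabW F.iso.subtype W₀) : ℂ) ≠ 0 := card_ne_zero'
  rw [card_iso_eq F hW₀, Nat.cast_mul]
  field_simp

/-- the local sum over the intersection of the stabilisers -/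
theorem JJ_eq_sub [Finite V] [Fintype F.iso] {k : ℕ} {c : GL (Fin k) K → ℂ} {ψ ψ' : F.iso → Submodule K V → ℂ}
    (W W' : Submodule K V) [Fintype ↥(stabW F.iso.subtype W ⊓ stabW F.iso.subtype W')] :
    JJ F c ψ ψ' W W' = ∑ g : ↥(stabW F.iso.subtype W ⊓ stabW F.iso.subtype W'),
      (flagTerm F.iso.subtype c g W * ψ g W) * conj (flagTerm F.iso.subtype c g W' * ψ' g W') := by
  classical
  have := isoFin F
  unfold JJ
  rw [sum_eq_sum_subgroup (stabW F.iso.subtype W ⊓ stabW F.iso.subtype W')]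
  intro g hg
  by_cases h : W.map (F.iso.subtype g : V →ₗ[K] V) = W
  · have h' : ¬ W'.map (F.iso.subtype g : V →ₗ[K] V) = W' := fun h' => hg ⟨h, h'⟩
    have e : flagTerm F.iso.subtype c g W' = 0 := by
      unfold flagTerm
      rw [dif_neg h']
    rw [e, zero_mul, map_zero, mul_zero]
  · have e : flagTerm F.iso.subtype c g W = 0 := by
      unfold flagTerm
      rw [dif_neg h]
    rw [e, zero_mul, zero_mul]

/-- the local sum vanishes if it vanishes on a subgroup -/
theorem JJ_eq_zero [FiniteDimensional K V] [Finite V] [Finite K] [Fintype F.iso] {k : ℕ} {c : GL (Fin k) K → ℂ}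
    (hc : IsCharacter _ c)
    {ψ ψ' : F.iso → Submodule K V → ℂ} {W W' : Submodule K V} (hW : finrank K W = k) (hW' : finrank K W' = k)
    (h1 : IsCharacter (stabW F.iso.subtype W) fun g => ψ g W)
    (h2 : IsCharacter (stabW F.iso.subtype W') fun g => ψ' g W')
    (h : ∃ L : Subgroup F.iso, L ≤ stabW F.iso.subtype W ∧ L ≤ stabW F.iso.subtype W' ∧
      ∀ [Fintype L], ∑ l : L, (flagTerm F.iso.subtype c l W * ψ l W) *
        conj (flagTerm F.iso.subtype c l W' * ψ' l W') = 0) : JJ F c ψ ψ' W W' = 0 := by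
  classical
  have := isoFin F
  obtain ⟨L, hL1, hL2, hL⟩ := h
  let _ : Fintype L := Fintype.ofFinite _
  let _ : Fintype ↥(stabW F.iso.subtype W ⊓ stabW F.iso.subtype W') := Fintype.ofFinite _
  rw [JJ_eq_sub W W']
  have hcl : IsClassFunction _ c := Core.isCharacter_isClassFunction hc
  -- the two characters of the intersection
  have key : ∀ (U : Submodule K V), finrank K U = k → ∀ (η : F.iso → Submodule K V → ℂ),
      IsCharacter (stabW F.iso.subtype U) (fun g => η g U) →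
      IsCharacter (stabW F.iso.subtype U) fun g => flagTerm F.iso.subtype c g U * η g U := by
    intro U hU η hη
    let b : Basis (Fin k) K U := finBasisOfFinrankEq K U hU
    let f : stabW F.iso.subtype U →* GL (Fin k) K := (glE b).toMonoidHom.comp (resHom F.iso.subtype U)
    have hft : ∀ g : stabW F.iso.subtype U, flagTerm F.iso.subtype c g U = c (f g) := by
      intro g
      rw [flagTerm_of F.iso.subtype c g.2, cl_eq hcl b]
      rfl
    have : (fun g : stabW F.iso.subtype U => flagTerm F.iso.subtype c g U * η g U) =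
        (c ∘ f) * (fun g : stabW F.iso.subtype U => η g U) := by
      ext g
      rw [hft]
      rfl
    rw [this]
    exact Core.isCharacter_mul (Core.isCharacter_comp f hc) hη
  let f : L →* ↥(stabW F.iso.subtype W ⊓ stabW F.iso.subtype W') :=
    Subgroup.inclusion (le_inf hL1 hL2)
  have k1 := Core.isCharacter_comp (Subgroup.inclusion (inf_le_left :
    stabW F.iso.subtype W ⊓ stabW F.iso.subtype W' ≤ stabW F.iso.subtype W)) (key W hW ψ h1)
  have k2 := Core.isCharacter_comp (Subgroup.inclusion (inf_le_right :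
    stabW F.iso.subtype W ⊓ stabW F.iso.subtype W' ≤ stabW F.iso.subtype W')) (key W' hW' ψ' h2)
  have h3 := classInner_eq_zero_of_comp f k1 k2 (by
    rw [Core.classInner_def]
    have := hL
    rw [show (∑ l : L, (((fun g : stabW F.iso.subtype W => flagTerm F.iso.subtype c g W * ψ g W) ∘
      (Subgroup.inclusion inf_le_left)) ∘ f) l * conj ((((fun g : stabW F.iso.subtype W' =>
      flagTerm F.iso.subtype c g W' * ψ' g W') ∘ (Subgroup.inclusion inf_le_right)) ∘ f) l)) = 0 from hL, mul_zero])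
  rw [Core.classInner_def] at h3
  rcases mul_eq_zero.1 h3 with h | h
  · exact absurd h (inv_ne_zero card_ne_zero')
  · exact h

/-- the local sums at the non-orthogonal non-opposite subspaces and at the orthogonal ones which meet -/
theorem JJ_far [FiniteDimensional K V] [Finite V] [Finite K] [Fintype F.iso] {k : ℕ} {c : GL (Fin k) K → ℂ}
    (hc : IsCharacter _ c) (hcusp : IsCusp c)
    {ψ ψ' : F.iso → Submodule K V → ℂ} {W W' : Submodule K V} (hW : W ∈ F.Om k) (hW' : W' ∈ F.Om k)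
    (h1 : IsCharacter (stabW F.iso.subtype W) fun g => ψ g W)
    (h2 : IsCharacter (stabW F.iso.subtype W') fun g => ψ' g W')
    (hT : ∀ g ∈ F.TT W, ψ g W = ψ 1 W) (hT' : ∀ g ∈ F.TT W', ψ' g W' = ψ' 1 W') (hne : W' ≠ W)
    (h0 : W ⊓ F.perp W' ≠ ⊥) (h3 : W ⊓ F.perp W' = W → W ⊓ W' ≠ ⊥) : JJ F c ψ ψ' W W' = 0 := by
  classical
  have hcl : IsClassFunction _ c := Core.isCharacter_isClassFunction hc
  refine JJ_eq_zero hc hW.2 hW'.2 h1 h2 ?_
  let ψc : F.iso → Submodule K V → ℂ := fun g U => if U = W then ψ g W else if U = W' then ψ' g W' else 0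
  have c1 : ∀ g, ψc g W = ψ g W := fun g => if_pos rfl
  have c2 : ∀ g, ψc g W' = ψ' g W' := fun g => by
    change (if W' = W then ψ g W else if W' = W' then ψ' g W' else 0) = _
    rw [if_neg hne, if_pos rfl]
  have hψT : ∀ U ∈ F.Om k, ∀ g ∈ F.TT U, ψc g U = ψc 1 U := by
    intro U _ g hg
    by_cases hU : U = W
    · subst hU
      rw [c1, c1]; exact hT g hg
    · by_cases hU' : U = W'
      · subst hU'
        rw [c2, c2]; exact hT' g hg
      · change (if U = W then ψ g W else if U = W' then ψ' g W' else 0) =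
          (if U = W then ψ 1 W else if U = W' then ψ' 1 W' else 0)
        rw [if_neg hU, if_neg hU', if_neg hU, if_neg hU']
  have key : F.Van c ψc W W' := by
    by_cases h4 : W ⊓ F.perp W' = W
    · exact van_case2 hcl hcusp hψT hW hW' (inf_eq_left.1 h4) (h3 h4) hne
    · exact van_case1 hcl hcusp hψT hW hW' h0 h4
  obtain ⟨L, hL1, hL2, hL⟩ := key
  refine ⟨L, hL1, hL2, fun {_} => ?_⟩
  rw [← hL]
  refine Finset.sum_congr rfl fun l _ => ?_
  rw [c1, c2]

/-- the inner product of two products over a joint surjection -/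
theorem inner_pair {S A B : Type*} [Group S] [Group A] [Group B] [Fintype S] [Fintype A] [Fintype B] (f : S →* A × B)
    (hf : Function.Surjective f) (a a' : A → ℂ) (b b' : B → ℂ) :
    ∑ s : S, (a (f s).1 * b (f s).2) * conj (a' (f s).1 * b' (f s).2) =
      (Nat.card S : ℂ) * (classInner a a' * classInner b b') := by
  classical
  rw [sum_comp_hom f hf (fun x => (a x.1 * b x.2) * conj (a' x.1 * b' x.2)), Core.classInner_def, Core.classInner_def,
    Fintype.sum_prod_type]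
  have e : ∀ x : A, ∑ y : B, a x * b y * conj (a' x * b' y) = (a x * conj (a' x)) * ∑ y : B, b y * conj (b' y) := by
    intro x
    rw [Finset.mul_sum]
    refine Finset.sum_congr rfl fun y _ => ?_
    rw [map_mul]
    ring
  rw [Finset.sum_congr rfl fun x _ => e x, ← Finset.sum_mul]
  have h1 : (Nat.card S : ℂ) = (Nat.card f.ker : ℂ) * (Nat.card A * Nat.card B) := by
    have h2 : Nat.card S = Nat.card (A × B) * Nat.card f.ker := by
      rw [← Nat.card_congr (QuotientGroup.quotientKerEquivOfSurjective f hf).toEquiv,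
        ← Subgroup.card_eq_card_quotient_mul_card_subgroup]
    rw [h2, Nat.card_prod]
    push_cast
    ring
  have hA : (Nat.card A : ℂ) ≠ 0 := card_ne_zero'
  have hB : (Nat.card B : ℂ) ≠ 0 := card_ne_zero'
  rw [h1]
  field_simp

/-- **The norm.** `c` cuspidal with `c ∘ ι = c`, `ψ g W₀ = χ (ρ g)`, `ψ' g W₀ = χ' (ρ g)`. -/
theorem inner_hc [FiniteDimensional K V] [Finite V] [Finite K] [Fintype F.iso] {k : ℕ} [Fintype (F.Om k)]
    {c : GL (Fin k) K → ℂ} (hc : IsIrrCharacter _ c) (hcusp : IsCusp c) (hself : c ∘ F.iota k = c)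
    {ψ ψ' : F.iso → Submodule K V → ℂ}
    (hψ : ∀ x g W, ψ (x * g * x⁻¹) (W.map (F.iso.subtype x : V →ₗ[K] V)) = ψ g W)
    (hψ' : ∀ x g W, ψ' (x * g * x⁻¹) (W.map (F.iso.subtype x : V →ₗ[K] V)) = ψ' g W)
    {W₀ : Submodule K V} (hW₀ : W₀ ∈ F.Om k) (hk : 0 < k) {G' : Type w} [Group G'] [Fintype G']
    (ρ : stabW F.iso.subtype W₀ →* G') (hρT : ∀ g : stabW F.iso.subtype W₀, (g : F.iso) ∈ F.TT W₀ → ρ g = 1)
    (hρs : ∀ (a : W₀ ≃ₗ[K] W₀) (b : G'), ∃ g : stabW F.iso.subtype W₀, ρ g = b ∧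
      ∀ w : W₀, ((g : F.iso) : V ≃ₗ[K] V) w = a w)
    {χ χ' : G' → ℂ} (hχ : IsCharacter G' χ) (hχ' : IsCharacter G' χ')
    (e : ∀ g : stabW F.iso.subtype W₀, ψ g W₀ = χ (ρ g)) (e' : ∀ g : stabW F.iso.subtype W₀, ψ' g W₀ = χ' (ρ g))
    (hopp : ∀ W' ∈ F.Om k, W₀ ⊓ F.perp W' = ⊥ → ∀ g ∈ stabW F.iso.subtype W₀, g ∈ stabW F.iso.subtype W' →
      ψ' g W' = ψ' g W₀)
    (hperp : ∀ W' ∈ F.Om k, W₀ ≤ F.perp W' → W₀ ⊓ W' = ⊥ → JJ F c ψ ψ' W₀ W' = 0) :
    classInner (F.hc c ψ) (F.hc c ψ') = 2 * classInner χ χ' := by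
  classical
  have := isoFin F
  have hcl := Core.isIrr_isClassFunction hc
  have hcc := Core.isIrr_isCharacter hc
  obtain ⟨W₁, hW₁, h01⟩ := F.exists_opp hW₀
  let b₀ : Basis (Fin k) K W₀ := finBasisOfFinrankEq K W₀ hW₀.2
  letI : Fintype (GL (Fin k) K) := Fintype.ofFinite _
  letI : Fintype (stabW F.iso.subtype W₀) := Fintype.ofFinite _
  have hS0 : (Nat.card (stabW F.iso.subtype W₀) : ℂ) ≠ 0 := card_ne_zero'
  have hcirr : classInner c c = 1 := Core.classInner_irr_self hc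
  -- the diagonal term
  have hself0 : W₀ ⊓ F.perp W₀ ≠ ⊥ := by
    intro h
    have h1 : W₀ ≤ W₀ ⊓ F.perp W₀ := le_inf le_rfl hW₀.1.le_perp
    rw [h] at h1
    have h2 := hW₀.2
    rw [le_bot_iff.1 h1, finrank_bot] at h2
    omega
  -- the two characters
  have hψc : IsCharacter (stabW F.iso.subtype W₀) fun g => ψ g W₀ := by
    have : (fun g : stabW F.iso.subtype W₀ => ψ g W₀) = χ ∘ ρ := funext e
    rw [this]; exact Core.isCharacter_comp ρ hχ
  have hψc' : IsCharacter (stabW F.iso.subtype W₀) fun g => ψ' g W₀ := by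
    have : (fun g : stabW F.iso.subtype W₀ => ψ' g W₀) = χ' ∘ ρ := funext e'
    rw [this]; exact Core.isCharacter_comp ρ hχ'
  have hT : ∀ g ∈ F.TT W₀, ψ g W₀ = ψ 1 W₀ := by
    intro g hg
    have h1 := e ⟨g, hg.1⟩
    have h2 := e 1
    rw [hρT ⟨g, hg.1⟩ hg] at h1
    rw [map_one] at h2
    exact h1.trans h2.symm
  have hT' : ∀ g ∈ F.TT W₀, ψ' g W₀ = ψ' 1 W₀ := by
    intro g hg
    have h1 := e' ⟨g, hg.1⟩
    have h2 := e' 1
    rw [hρT ⟨g, hg.1⟩ hg] at h1
    rw [map_one] at h2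
    exact h1.trans h2.symm
  -- transport of the properties of `ψ'` to `W'`
  have tr : ∀ W' ∈ F.Om k, IsCharacter (stabW F.iso.subtype W') (fun g => ψ' g W') ∧
      ∀ g ∈ F.TT W', ψ' g W' = ψ' 1 W' := by
    intro W' hW'
    obtain ⟨x, hx⟩ := F.trans_Om hW₀ hW'
    subst hx
    have hv : ∀ g : F.iso, ψ' g (W₀.map (F.iso.subtype x : V →ₗ[K] V)) = ψ' (x⁻¹ * g * x) W₀ := by
      intro g
      rw [← hψ' x (x⁻¹ * g * x) W₀]
      congr 1
      group
    constructor
    · let f : stabW F.iso.subtype (W₀.map (F.iso.subtype x : V →ₗ[K] V)) →* stabW F.iso.subtype W₀ :=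
        { toFun := fun g => ⟨x⁻¹ * g * x, stabW_map.1 g.2⟩
          map_one' := by
            apply Subtype.ext
            change x⁻¹ * 1 * x = 1
            group
          map_mul' := fun g h => by
            apply Subtype.ext
            change x⁻¹ * (g * h) * x = x⁻¹ * g * x * (x⁻¹ * h * x)
            group }
      have : (fun g : stabW F.iso.subtype (W₀.map (F.iso.subtype x : V →ₗ[K] V)) =>
          ψ' g (W₀.map (F.iso.subtype x : V →ₗ[K] V))) = (fun g : stabW F.iso.subtype W₀ => ψ' g W₀) ∘ f :=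
        funext fun g => hv g
      rw [this]
      exact Core.isCharacter_comp f hψc'
    · intro g hg
      rw [hv, hv, hT' (x⁻¹ * g * x) ?_]
      · congr 1
        group
      · -- `TT` is transported
        refine ⟨stabW_map.1 hg.1, fun v hv => ?_⟩
        have h1 : (x : V ≃ₗ[K] V) v ∈ F.perp (W₀.map (F.iso.subtype x : V →ₗ[K] V)) := by
          rintro _ ⟨w, hw, rfl⟩
          exact (F.iso_B x v w).trans (hv w hw)
        obtain ⟨y, hy, hy'⟩ := hg.2 _ h1
        have h2 : ((x⁻¹ * g * x : F.iso) : V ≃ₗ[K] V) v - v =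
            ((x⁻¹ : F.iso) : V ≃ₗ[K] V) ((g : V ≃ₗ[K] V) ((x : V ≃ₗ[K] V) v) - (x : V ≃ₗ[K] V) v) := by
          rw [map_sub]
          congr 1
          exact ((x : V ≃ₗ[K] V).symm_apply_apply v).symm
        rw [h2, ← hy']
        have h3 : ((x⁻¹ : F.iso) : V ≃ₗ[K] V) ((F.iso.subtype x : V →ₗ[K] V) y) = y :=
          (x : V ≃ₗ[K] V).symm_apply_apply y
        rw [h3]; exact hy
  -- the value of the local sums
  have val : ∀ W' : F.Om k, JJ F c ψ ψ' W₀ W'.1 =
      (if W'.1 = W₀ then (Nat.card (stabW F.iso.subtype W₀) : ℂ) * classInner χ χ' else 0) +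
      (if W₀ ⊓ F.perp W'.1 = ⊥ then
        (Nat.card ↥(stabW F.iso.subtype W₀ ⊓ stabW F.iso.subtype W'.1) : ℂ) else 0) * classInner χ χ' := by
    intro W'
    letI : Fintype ↥(stabW F.iso.subtype W₀ ⊓ stabW F.iso.subtype W'.1) := Fintype.ofFinite _
    by_cases h1 : W'.1 = W₀
    · rw [if_pos h1, h1, if_neg hself0, zero_mul, add_zero]
      letI : Fintype ↥(stabW F.iso.subtype W₀ ⊓ stabW F.iso.subtype W₀) := Fintype.ofFinite _
      rw [JJ_eq_sub W₀ W₀]
      let f : ↥(stabW F.iso.subtype W₀ ⊓ stabW F.iso.subtype W₀) →* GL (Fin k) K × G' :=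
        (((glE b₀).toMonoidHom.comp (resHom F.iso.subtype W₀)).prod ρ).comp (Subgroup.inclusion inf_le_left)
      have hf : Function.Surjective f := by
        rintro ⟨A, b⟩
        obtain ⟨a, rfl⟩ := (glE b₀).surjective A
        obtain ⟨g, hg1, hg2⟩ := hρs a b
        refine ⟨⟨g, g.2, g.2⟩, Prod.ext ?_ hg1⟩
        change glE b₀ (res (F.iso.subtype g) W₀ _) = glE b₀ a
        congr 1
        ext w
        exact hg2 w
      have h2 := inner_pair f hf c c χ χ'
      have hcd : Nat.card ↥(stabW F.iso.subtype W₀ ⊓ stabW F.iso.subtype W₀) = Nat.card (stabW F.iso.subtype W₀) := by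
        rw [inf_idem]
      rw [hcirr, one_mul, hcd] at h2
      rw [← h2]
      refine Finset.sum_congr rfl fun g _ => ?_
      rw [flagTerm_of F.iso.subtype c g.2.1, cl_eq hcl b₀]
      have h3 := e ⟨g, g.2.1⟩
      have h4 := e' ⟨g, g.2.1⟩
      change ψ (g : F.iso) W₀ = _ at h3
      change ψ' (g : F.iso) W₀ = _ at h4
      rw [h3, h4]
      rfl
    · rw [if_neg h1, zero_add]
      by_cases h2 : W₀ ⊓ F.perp W'.1 = ⊥
      · rw [if_pos h2]
        rw [JJ_eq_sub W₀ W'.1]
        obtain ⟨b, b', hb⟩ := exists_dual_basis hW₀.2 W'.2.2 h2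
        let f : ↥(stabW F.iso.subtype W₀ ⊓ stabW F.iso.subtype W'.1) →* GL (Fin k) K × G' :=
          (((glE b).toMonoidHom.comp (resHom F.iso.subtype W₀)).prod ρ).comp (Subgroup.inclusion inf_le_left)
        have hf : Function.Surjective f := by
          rintro ⟨A, y⟩
          obtain ⟨a, rfl⟩ := (glE b).surjective A
          obtain ⟨g, hg1, hg2⟩ := hρs a y
          -- correct `g` by an element of `TT W₀`
          have h3 : W₀ ⊓ F.perp (W'.1.map (F.iso.subtype (g : F.iso) : V →ₗ[K] V)) = ⊥ := by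
            rw [Submodule.eq_bot_iff]
            rintro x ⟨hx, hx'⟩
            have h4 : W₀.map (F.iso.subtype (g : F.iso) : V →ₗ[K] V) = W₀ := g.2
            change x ∈ W₀ at hx
            rw [← h4] at hx
            obtain ⟨z, hz, rfl⟩ := hx
            have h5 : z ∈ W₀ ⊓ F.perp W'.1 := by
              refine ⟨hz, fun w hw => ?_⟩
              have h6 := hx' (((g : F.iso) : V ≃ₗ[K] V) w) ⟨w, hw, rfl⟩
              exact (F.iso_B (g : F.iso) z w).symm.trans h6
            rw [h2] at h5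
            rw [(Submodule.mem_bot K).1 h5, map_zero]
          obtain ⟨u, hu1, hu2, hu3⟩ := exists_opp_map hW₀.1 (F.Om_map (g : F.iso) _ W'.2).1 W'.2.1
            (by rw [(F.Om_map (g : F.iso) _ W'.2).2, hW₀.2]) (by rw [W'.2.2, hW₀.2]) h3 h2
          have hu : u ∈ stabW F.iso.subtype W₀ := hu1.1
          refine ⟨⟨u * g, Subgroup.mul_mem _ hu g.2, ?_⟩, Prod.ext ?_ ?_⟩
          · change W'.1.map (F.iso.subtype (u * (g : F.iso)) : V →ₗ[K] V) = W'.1
            rw [map_mul_apply, hu3]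
          · change glE b (res (F.iso.subtype (u * (g : F.iso))) W₀ _) = glE b a
            congr 1
            ext w
            change (u : V ≃ₗ[K] V) (((g : F.iso) : V ≃ₗ[K] V) w) = a w
            rw [hg2 w]
            exact hu2 _ (a w).2
          · change ρ (⟨u, hu⟩ * g) = y
            rw [map_mul, hρT ⟨u, hu⟩ hu1, one_mul, hg1]
        have h5 := inner_pair f hf c c χ χ'
        rw [hcirr, one_mul] at h5
        rw [← h5]
        refine Finset.sum_congr rfl fun g _ => ?_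
        rw [flagTerm_of F.iso.subtype c g.2.1, flagTerm_of F.iso.subtype c g.2.2, cl_eq hcl b, cl_eq hcl b',
          glE_opp hb g.2.1 g.2.2, hopp W'.1 W'.2 h2 g g.2.1 g.2.2]
        have h3 := e ⟨g, g.2.1⟩
        have h4 := e' ⟨g, g.2.1⟩
        change ψ (g : F.iso) W₀ = _ at h3
        change ψ' (g : F.iso) W₀ = _ at h4
        rw [h3, h4]
        have h6 := congrFun hself (glE b (res (F.iso.subtype (g : F.iso)) W₀ g.2.1))
        rw [Function.comp_apply] at h6
        rw [h6]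
        rfl
      · rw [if_neg h2, zero_mul]
        by_cases h3 : W₀ ⊓ F.perp W'.1 = W₀ ∧ W₀ ⊓ W'.1 = ⊥
        · exact hperp W'.1 W'.2 (inf_eq_left.1 h3.1) h3.2
        · exact JJ_far hcc hcusp hW₀ W'.2 hψc (tr W'.1 W'.2).1 hT (tr W'.1 W'.2).2 h1 h2 fun h4 h5 => h3 ⟨h4, h5⟩
  rw [inner_hc_eq hcl hψ hψ' hW₀, Finset.sum_congr rfl fun W' _ => val W', Finset.sum_add_distrib, ← Finset.sum_mul,
    sum_opp hW₀ hW₁ h01, Finset.sum_eq_single (⟨W₀, hW₀⟩ : F.Om k)]
  · rw [if_pos rfl]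
    field_simp
    ring
  · intro W' _ hW'
    rw [if_neg fun h => hW' (Subtype.ext h)]
  · intro h; exact absurd (Finset.mem_univ _) h

end Cfsg.Agent.H47.HT
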