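import Cfsg.Agent.H477.HC.Trans
import Cfsg.Agent.H477.HC.Stab

/-!
# The opposites of a totally singular subspace (helper47, S4933)

* `exists_opp_map` : the elements of `TT W₀` trivial on `W₀` are transitive on the opposites of `W₀`;
* `sum_opp` : `∑ |S₀ ∩ S'| = |S₀|` over the opposites `W'`, `S₀`, `S'` the stabilisers of `W₀`, `W'`.
-/

set_option autoImplicit false
set_option linter.unusedSectionVars false
set_option linter.style.haveILetI false

open scoped ComplexConjugate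
open Cfsg

namespace Cfsg.Agent.H47.HT

open Cfsg.Agent.OddOrderCharacters.Clifford Cfsg.Agent.Characters MulAction Module Cfsg.Agent.H53.HC
open Cfsg.Agent.H477.HC Cfsg.Agent.H477.HC.CForm

universe u v w

variable {K : Type u} [Field K] {V : Type v} [AddCommGroup V] [Module K V] {F : CForm K V}

/-- **transitivity on the opposites** -/
theorem exists_opp_map [FiniteDimensional K V] {W₀ W₁ W₂ : Submodule K V} (hW₀ : F.TS W₀) (hW₁ : F.TS W₁)
    (hW₂ : F.TS W₂) (d1 : finrank K W₁ = finrank K W₀) (d2 : finrank K W₂ = finrank K W₀)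
    (h01 : W₀ ⊓ F.perp W₁ = ⊥) (h02 : W₀ ⊓ F.perp W₂ = ⊥) :
    ∃ g : F.iso, g ∈ F.TT W₀ ∧ (∀ w ∈ W₀, (g : V ≃ₗ[K] V) w = w) ∧ W₁.map (F.iso.subtype g : V →ₗ[K] V) = W₂ := by
  classical
  have h10 := opp_symm (F := F) rfl d1 h01
  have h20 := opp_symm (F := F) rfl d2 h02
  have a1 : ∀ w ∈ W₀, (∀ w' ∈ W₁, F.B w w' = 0) → w = 0 := fun w hw hw' => by
    have : w ∈ W₀ ⊓ F.perp W₁ := ⟨hw, hw'⟩
    rw [h01] at this
    exact (Submodule.mem_bot K).1 this
  have a2 : ∀ w ∈ W₀, (∀ w' ∈ W₂, F.B w w' = 0) → w = 0 := fun w hw hw' => by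
    have : w ∈ W₀ ⊓ F.perp W₂ := ⟨hw, hw'⟩
    rw [h02] at this
    exact (Submodule.mem_bot K).1 this
  have b1 : ∀ w' ∈ W₁, (∀ w ∈ W₀, F.B w w' = 0) → w' = 0 := fun w hw hw' => by
    have : w ∈ W₁ ⊓ F.perp W₀ := ⟨hw, fun w' hw'' => F.B_eq_zero (hw' w' hw'')⟩
    rw [h10] at this
    exact (Submodule.mem_bot K).1 this
  have b2 : ∀ w' ∈ W₂, (∀ w ∈ W₀, F.B w w' = 0) → w' = 0 := fun w hw hw' => by
    have : w ∈ W₂ ⊓ F.perp W₀ := ⟨hw, fun w' hw'' => F.B_eq_zero (hw' w' hw'')⟩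
    rw [h20] at this
    exact (Submodule.mem_bot K).1 this
  obtain ⟨P, hP⟩ := F.exists_proj a1 b1
  obtain ⟨P₂, hP₂⟩ := F.exists_proj a2 b2
  have h1' : ∀ w ∈ W₁, (∀ w' ∈ W₀, F.B w w' = 0) → w = 0 := fun w hw h => b1 w hw fun w' hw' => F.B_eq_zero (h w' hw')
  have h2' : ∀ w' ∈ W₀, (∀ w ∈ W₁, F.B w w' = 0) → w' = 0 := fun w hw h => a1 w hw fun w' hw' => F.B_eq_zero (h w' hw')
  obtain ⟨P', hP'⟩ := F.exists_proj h1' h2'
  -- the dual map `W₁ → W₂`
  have key : ∀ w' : W₁, ∃ z : W₂, ∀ w : W₀, F.B w z = F.B w w' := by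
    intro w'
    obtain ⟨b, hb, hb'⟩ := F.exists_pair W₀ W₂ ((F.lf (w' : V)).comp W₀.subtype) (fun w hw => by
      have := a2 w w.2 hw
      have e : w = 0 := Subtype.ext this
      rw [e, map_zero])
    exact ⟨⟨b, hb⟩, fun w => (hb' w).symm⟩
  choose f hf using key
  have huniq : ∀ z z' : W₂, (∀ w : W₀, F.B w z = F.B w z') → z = z' := by
    intro z z' h
    have : ((z - z' : W₂) : V) = 0 := b2 _ (z - z').2 fun w hw => by
      rw [Submodule.coe_sub, F.B_sub_right, h ⟨w, hw⟩, sub_self]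
    exact sub_eq_zero.1 (Subtype.ext this)
  let D : W₁ →ₗ[K] W₂ := ⟨⟨f, fun x y => huniq _ _ fun w => by
      rw [hf, Submodule.coe_add, Submodule.coe_add, F.B_add_right, F.B_add_right, hf, hf]⟩,
    fun c x => huniq _ _ fun w => by
      rw [hf, RingHom.id_apply, Submodule.coe_smul, Submodule.coe_smul, F.B_smul_right, F.B_smul_right, hf]⟩
  have hD : ∀ (w : W₀) (w' : W₁), F.B w (D w') = F.B w w' := fun w w' => hf w' w
  have PW₀ : ∀ w : W₀, P w = w := by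
    intro w
    have : ((P w - w : W₀) : V) = 0 := a1 _ (P w - w).2 fun w' hw' => by
      rw [Submodule.coe_sub, F.B_sub_left, ← hP w w' hw', sub_self]
    exact sub_eq_zero.1 (Subtype.ext this)
  have P₂W₀ : ∀ w : W₀, P₂ w = w := by
    intro w
    have : ((P₂ w - w : W₀) : V) = 0 := a2 _ (P₂ w - w).2 fun w' hw' => by
      rw [Submodule.coe_sub, F.B_sub_left, ← hP₂ w w' hw', sub_self]
    exact sub_eq_zero.1 (Subtype.ext this)
  have P'W' : ∀ w : W₁, P' w = w := by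
    intro w
    have : ((P' w - w : W₁) : V) = 0 := h1' _ (P' w - w).2 fun w' hw' => by
      rw [Submodule.coe_sub, F.B_sub_left, ← hP' w w' hw', sub_self]
    exact sub_eq_zero.1 (Subtype.ext this)
  have P0 : ∀ v, (∀ w ∈ W₁, F.B v w = 0) → P v = 0 := by
    intro v hv
    have : ((P v : W₀) : V) = 0 := a1 _ (P v).2 fun w' hw' => by rw [← hP v w' hw', hv w' hw']
    exact Subtype.ext this
  have P'0 : ∀ v, (∀ w ∈ W₀, F.B v w = 0) → P' v = 0 := by
    intro v hv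
    have : ((P' v : W₁) : V) = 0 := h1' _ (P' v).2 fun w' hw' => by rw [← hP' v w' hw', hv w' hw']
    exact Subtype.ext this
  let R : V →ₗ[K] V := LinearMap.id - W₀.subtype ∘ₗ P - W₁.subtype ∘ₗ P'
  have hR : ∀ v, R v = v - P v - P' v := fun v => rfl
  have RW₀ : ∀ v, ∀ w ∈ W₀, F.B (R v) w = 0 := by
    intro v w hw
    rw [hR, F.B_sub_left, F.B_sub_left, hW₀.2 _ (P v).2 w hw, hP' v w hw]
    ring
  have RW' : ∀ v, ∀ w ∈ W₁, F.B (R v) w = 0 := by
    intro v w hw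
    rw [hR, F.B_sub_left, F.B_sub_left, hW₁.2 _ (P' v).2 w hw, hP v w hw]
    ring
  have hdec : ∀ v, v = R v + (P v + P' v) := fun v => by rw [hR]; abel
  let R₂ : V →ₗ[K] V := R - W₀.subtype ∘ₗ P₂ ∘ₗ R
  have hR₂ : ∀ v, R₂ v = R v - P₂ (R v) := fun v => rfl
  have c0 : ∀ v, ∀ w ∈ W₀, F.B (R₂ v) w = 0 := by
    intro v w hw
    rw [hR₂, F.B_sub_left, RW₀ v w hw, hW₀.2 _ (P₂ (R v)).2 w hw, sub_zero]
  have c2 : ∀ v, ∀ w ∈ W₂, F.B (R₂ v) w = 0 := by
    intro v w hw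
    rw [hR₂, F.B_sub_left, ← hP₂ (R v) w hw, sub_self]
  have cc : ∀ u v, F.B (R₂ u) (R₂ v) = F.B (R u) (R v) := by
    intro u v
    rw [hR₂ v, F.B_sub_right, c0 u _ (P₂ (R v)).2, sub_zero, hR₂ u, F.B_sub_left,
      F.B_eq_zero (RW₀ v _ (P₂ (R u)).2), sub_zero]
  have cQ : ∀ v, F.Q (R₂ v) = F.Q (R v) := by
    intro v
    have e : R₂ v = R v + ((-P₂ (R v) : W₀) : V) := by
      rw [hR₂, Submodule.coe_neg, sub_eq_add_neg]
    rw [e, F.Q_add, RW₀ v _ (Subtype.property _), hW₀.1 _ (Subtype.property _), F.T_zero, add_zero, add_zero]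
  let φ : V →ₗ[K] V := R₂ + (W₀.subtype ∘ₗ P + W₂.subtype ∘ₗ D ∘ₗ P')
  have hφ : ∀ v, φ v = R₂ v + ((P v : V) + (D (P' v) : V)) := fun v => rfl
  obtain ⟨g, hg⟩ := F.exists_iso φ (fun u v => by
    rw [hφ, hφ]
    conv_rhs => rw [hdec u, hdec v]
    simp only [F.B_add_left, F.B_add_right]
    rw [cc, c0 u _ (P v).2, c2 u _ (D (P' v)).2, F.B_eq_zero (c0 v _ (P u).2), F.B_eq_zero (c2 v _ (D (P' u)).2),
      hW₀.2 _ (P u).2 _ (P v).2, hW₂.2 _ (D (P' u)).2 _ (D (P' v)).2, hD, F.B_symm (D (P' u) : V), hD, ← F.B_symm,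
      RW₀ u _ (P v).2, RW' u _ (P' v).2, F.B_eq_zero (RW₀ v _ (P u).2), F.B_eq_zero (RW' v _ (P' u).2),
      hW₁.2 _ (P' u).2 _ (P' v).2]) (fun v => by
    rw [hφ]
    conv_rhs => rw [hdec v]
    rw [F.Q_add, F.Q_add (P v : V), F.Q_add (R v) (P v + P' v), F.Q_add (P v : V) (P' v), F.B_add_right, F.B_add_right,
      c0 v _ (P v).2, c2 v _ (D (P' v)).2, RW₀ v _ (P v).2, RW' v _ (P' v).2, hD, cQ, hW₀.1 _ (P v).2,
      hW₂.1 _ (D (P' v)).2, hW₁.1 _ (P' v).2])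
  have g1 : ∀ w ∈ W₀, (g : V ≃ₗ[K] V) w = w := by
    intro w hw
    have e1 : P' w = 0 := P'0 _ fun w' hw' => hW₀.2 w hw w' hw'
    have e2 : R w = 0 := by
      rw [hR, e1]
      have := PW₀ ⟨w, hw⟩
      change P w = ⟨w, hw⟩ at this
      rw [this]
      simp
    have e3 := PW₀ ⟨w, hw⟩
    change P w = ⟨w, hw⟩ at e3
    rw [hg, hφ, hR₂, e2, e1, e3, map_zero, map_zero]
    simp
  have g2 : ∀ w ∈ W₁, (g : V ≃ₗ[K] V) w ∈ W₂ := by
    intro w hw
    have e1 : P w = 0 := P0 _ fun w' hw' => hW₁.2 w hw w' hw'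
    have e3 := P'W' ⟨w, hw⟩
    change P' w = ⟨w, hw⟩ at e3
    have e2 : R w = 0 := by
      rw [hR, e1, e3]
      simp
    rw [hg, hφ, hR₂, e2, e1, map_zero]
    simp
  refine ⟨g, F.mem_TT_of hW₀ fun v hv => ?_, g1, ?_⟩
  · have e1 : P' v = 0 := P'0 v hv
    rw [hg, hφ, hR₂, hR, e1, map_zero]
    have : v - (P v : V) - ((0 : W₁) : V) - (P₂ (v - (P v : V) - ((0 : W₁) : V)) : V) + ((P v : V) + ((0 : W₂) : V)) - v =
        ((-P₂ (v - (P v : V) - ((0 : W₁) : V)) : W₀) : V) := by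
      rw [Submodule.coe_neg, Submodule.coe_zero, Submodule.coe_zero]
      abel
    rw [this]
    exact Subtype.property _
  · apply Submodule.eq_of_le_of_finrank_eq
    · rintro _ ⟨w, hw, rfl⟩
      exact g2 w hw
    · rw [d2, ← d1]
      exact LinearEquiv.finrank_map_eq (g : V ≃ₗ[K] V) W₁

theorem isoFin (F : CForm K V) [Finite V] : Finite F.iso := by
  have : Finite (V ≃ₗ[K] V) := Finite.of_injective (fun e : V ≃ₗ[K] V => (e : V → V)) DFunLike.coe_injective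
  infer_instance

theorem stabW_map {x : F.iso} {W : Submodule K V} {g : F.iso} :
    g ∈ stabW F.iso.subtype (W.map (F.iso.subtype x : V →ₗ[K] V)) ↔ x⁻¹ * g * x ∈ stabW F.iso.subtype W := by
  constructor
  · intro h
    change W.map (F.iso.subtype (x⁻¹ * g * x) : V →ₗ[K] V) = W
    have h' : (W.map (F.iso.subtype x : V →ₗ[K] V)).map (F.iso.subtype g : V →ₗ[K] V) =
        W.map (F.iso.subtype x : V →ₗ[K] V) := h
    rw [map_mul_apply, map_mul_apply, h', ← map_mul_apply, inv_mul_cancel, map_one]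
    exact Submodule.map_id _
  · intro h
    change (W.map (F.iso.subtype x : V →ₗ[K] V)).map (F.iso.subtype g : V →ₗ[K] V) =
      W.map (F.iso.subtype x : V →ₗ[K] V)
    have h' : W.map (F.iso.subtype (x⁻¹ * g * x) : V →ₗ[K] V) = W := h
    rw [← map_mul_apply]
    conv_rhs => rw [← h']
    rw [← map_mul_apply]
    congr 3
    group

open Classical in
/-- `∑ |S₀ ∩ S'| = |S₀|` over the opposites -/
theorem sum_opp [FiniteDimensional K V] [Finite V] {k : ℕ} [Fintype (F.Om k)] {W₀ W₁ : Submodule K V}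
    (hW₀ : W₀ ∈ F.Om k) (hW₁ : W₁ ∈ F.Om k) (h01 : W₀ ⊓ F.perp W₁ = ⊥) :
    ∑ W' : F.Om k, (if W₀ ⊓ F.perp W'.1 = ⊥ then
      (Nat.card ↥(stabW F.iso.subtype W₀ ⊓ stabW F.iso.subtype W'.1) : ℂ) else 0) =
      Nat.card (stabW F.iso.subtype W₀) := by
  have := isoFin F
  let _ : Fintype (stabW F.iso.subtype W₀) := Fintype.ofFinite _
  have e1 : (Nat.card (stabW F.iso.subtype W₀) : ℂ) = ∑ g : stabW F.iso.subtype W₀, (1 : ℂ) := by
    rw [Finset.sum_const, Finset.card_univ, ← Nat.card_eq_fintype_card, nsmul_eq_mul, mul_one]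
  rw [e1, ← Finset.sum_fiberwise_of_maps_to (s := (Finset.univ : Finset (stabW F.iso.subtype W₀)))
    (t := (Finset.univ : Finset (F.Om k))) (g := fun g => ⟨W₁.map (F.iso.subtype (g : F.iso) : V →ₗ[K] V),
      F.Om_map _ _ hW₁⟩) (fun _ _ => Finset.mem_univ _)]
  refine Finset.sum_congr rfl fun W' _ => ?_
  rw [Finset.sum_const, nsmul_eq_mul, mul_one]
  split_ifs with h
  · obtain ⟨u, -, hu0, hu1⟩ := exists_opp_map hW₀.1 hW₁.1 W'.2.1 (by rw [hW₁.2, hW₀.2]) (by rw [W'.2.2, hW₀.2]) h01 h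
    have hu : u ∈ stabW F.iso.subtype W₀ := map_eq_of_le F.iso.subtype fun w hw => by
      change (u : V ≃ₗ[K] V) w ∈ W₀
      rw [hu0 w hw]; exact hw
    congr 1
    let _ : Fintype ↥(stabW F.iso.subtype W₀ ⊓ stabW F.iso.subtype W'.1) := Fintype.ofFinite _
    rw [Nat.card_eq_fintype_card, ← Fintype.card_coe]
    refine Fintype.card_congr ?_
    refine ⟨fun x => ⟨⟨x.1 * u, Subgroup.mul_mem _ x.2.1 hu⟩, ?_⟩,
      fun s => ⟨(s.1 : F.iso) * u⁻¹, Subgroup.mul_mem _ s.1.2 (Subgroup.inv_mem _ hu), ?_⟩, ?_, ?_⟩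
    · rw [Finset.mem_filter]
      refine ⟨Finset.mem_univ _, Subtype.ext ?_⟩
      change W₁.map (F.iso.subtype ((x.1 : F.iso) * u) : V →ₗ[K] V) = W'.1
      rw [map_mul_apply, hu1]
      exact x.2.2
    · have h3 := congrArg Subtype.val (Finset.mem_filter.1 s.2).2
      change W₁.map (F.iso.subtype (s.1 : F.iso) : V →ₗ[K] V) = W'.1 at h3
      change W'.1.map (F.iso.subtype ((s.1 : F.iso) * u⁻¹) : V →ₗ[K] V) = W'.1
      conv_lhs => rw [← hu1]
      rw [← map_mul_apply, inv_mul_cancel_right, h3]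
    · intro x
      apply Subtype.ext
      change (x.1 : F.iso) * u * u⁻¹ = x.1
      group
    · intro s
      apply Subtype.ext
      apply Subtype.ext
      change (s.1 : F.iso) * u⁻¹ * u = s.1
      group
  · rw [Finset.card_eq_zero.2, Nat.cast_zero]
    rw [Finset.filter_eq_empty_iff]
    intro g _ hg
    apply h
    have h3 := congrArg Subtype.val hg
    change W₁.map (F.iso.subtype (g : F.iso) : V →ₗ[K] V) = W'.1 at h3
    have h4 : W₀.map (F.iso.subtype (g : F.iso) : V →ₗ[K] V) = W₀ := g.2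
    rw [Submodule.eq_bot_iff]
    rintro x ⟨hx, hx'⟩
    change x ∈ W₀ at hx
    rw [← h4] at hx
    obtain ⟨y, hy, rfl⟩ := hx
    have h5 : y ∈ W₀ ⊓ F.perp W₁ := by
      refine ⟨hy, fun w hw => ?_⟩
      have h6 := hx' ((g : V ≃ₗ[K] V) w) (by
        rw [← h3]
        exact ⟨w, hw, rfl⟩)
      exact (F.iso_B (g : F.iso) y w).symm.trans h6
    rw [h01] at h5
    rw [(Submodule.mem_bot K).1 h5, map_zero]

end Cfsg.Agent.H47.HT
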